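/-
Project SG2 (helper36): a standard subgroup `G₂(4)` whose centraliser contains a four-group (S1767).
The field with four elements and the module `F₄ ⊗ O₆⁺(2)` of the symmetric group of degree eight.
-/
import Cfsg.Agent.ST4.Defs

set_option autoImplicit false

open Equiv

namespace CL.SG2

/-- `0`, `1`, `ω`, `ω²` -/
inductive F4 | o | i | w | v
  deriving DecidableEq

namespace F4

instance : Fintype F4 := ⟨{o, i, w, v}, fun x => by cases x <;> decide⟩

def add : F4 → F4 → F4
  | o, x => x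
  | i, o => i | i, i => o | i, w => v | i, v => w
  | w, o => w | w, i => v | w, w => o | w, v => i
  | v, o => v | v, i => w | v, w => i | v, v => o

def mul : F4 → F4 → F4
  | o, _ => o
  | i, x => x
  | w, o => o | w, i => w | w, w => v | w, v => i
  | v, o => o | v, i => v | v, w => i | v, v => w

def inv : F4 → F4
  | o => o | i => i | w => v | v => w

instance : Zero F4 := ⟨o⟩
instance : One F4 := ⟨i⟩
instance : Add F4 := ⟨add⟩
instance : Mul F4 := ⟨mul⟩
instance : Neg F4 := ⟨id⟩
instance : Inv F4 := ⟨inv⟩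

instance : Field F4 where
  add_assoc := by decide
  zero_add := by decide
  add_zero := by decide
  add_comm := by decide
  neg_add_cancel := by decide
  mul_assoc := by decide
  one_mul := by decide
  mul_one := by decide
  mul_comm := by decide
  zero_mul := by decide
  mul_zero := by decide
  left_distrib := by decide
  right_distrib := by decide
  exists_pair_ne := by decide
  mul_inv_cancel := by decide
  inv_zero := by decide
  nsmul := nsmulRec
  zsmul := zsmulRec
  nnqsmul := _
  nnqsmul_def := fun _ _ => rfl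
  qsmul := _
  qsmul_def := fun _ _ => rfl

theorem card : Fintype.card F4 = 4 := rfl

@[simp] theorem add_self (a : F4) : a + a = 0 := by revert a; decide

@[simp] theorem neg_eq (a : F4) : -a = a := rfl

instance : CharP F4 2 := CharTwo.of_one_ne_zero_of_two_eq_zero (by decide) (by rw [← one_add_one_eq_two, add_self])

end F4

scoped notation "ω" => F4.w
scoped notation "ω'" => F4.v

/-- coordinates for the roots `b`, `a + b`, `2a + b`, `3a + b` and for the two four-groups `R'`, `R` -/
abbrev V : Type := Fin 6 → F4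

theorem forall_V {p : V → Prop} : (∀ v, p v) ↔ ∀ a b c d e f, p ![a, b, c, d, e, f] :=
  ⟨fun h _ _ _ _ _ _ => h _, fun h v => by
    rw [show v = ![v 0, v 1, v 2, v 3, v 4, v 5] from funext fun i => by fin_cases i <;> rfl]
    exact h ..⟩

/-- a function on eight points with sum zero -/
def ext (v : V) : Fin 8 → F4 :=
  ![v 0 + v 3 + v 4 + v 5, v 0 + v 3 + ω' * v 4 + ω * v 5, v 0 + v 3 + ω * v 4 + ω' * v 5, v 1 + v 2,
    ω' * v 1 + ω * v 2, ω * v 1 + ω' * v 2, v 0, v 3]

/-- the coordinates of a function with sum zero, modulo the constants -/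
def nf (f : Fin 8 → F4) : V :=
  ![f 6 + (f 3 + f 4 + f 5), f 3 + ω * f 4 + ω' * f 5, f 3 + ω' * f 4 + ω * f 5, f 7 + (f 3 + f 4 + f 5),
    f 0 + ω * f 1 + ω' * f 2, f 0 + ω' * f 1 + ω * f 2]

/-- the action of a permutation -/
def pa (σ : Perm (Fin 8)) (v : V) : V := nf (ext v ∘ σ.symm)

def Qf (v : V) : F4 := v 0 * v 3 + v 1 * v 2 + v 4 * v 5

def Bf (v w : V) : F4 := v 0 * w 3 + v 3 * w 0 + v 1 * w 2 + v 2 * w 1 + v 4 * w 5 + v 5 * w 4

/-- squaring the values of the function -/
def fr (v : V) : V := ![v 0 * v 0, v 2 * v 2, v 1 * v 1, v 3 * v 3, v 5 * v 5, v 4 * v 4]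

abbrev e (i : Fin 6) (c : F4) : V := Pi.single i c

theorem add_self (v : V) : v + v = 0 := funext fun i => F4.add_self (v i)

theorem V_ind {p : V → Prop} (h0 : p 0) (h : ∀ v i c, p v → p (v + e i c)) (v : V) : p v := by
  rw [show v = 0 + e 0 (v 0) + e 1 (v 1) + e 2 (v 2) + e 3 (v 3) + e 4 (v 4) + e 5 (v 5) from
    funext fun i => by fin_cases i <;> simp]
  exact h _ _ _ (h _ _ _ (h _ _ _ (h _ _ _ (h _ _ _ (h _ _ _ h0)))))

/-- additive maps that agree on the coordinate axes -/
theorem lin_ext {M : Type*} [AddGroup M] {f g : V → M} (hf : ∀ v w, f (v + w) = f v + f w)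
    (hg : ∀ v w, g (v + w) = g v + g w) (h : ∀ i c, f (e i c) = g (e i c)) (v : V) : f v = g v :=
  V_ind (p := fun v => f v = g v) (by simpa using h 0 0) (fun v i c k => by rw [hf, hg, k, h]) v

theorem ext_add (v w : V) : ext (v + w) = ext v + ext w := by
  funext i; fin_cases i <;> simp [ext] <;> ring

theorem ext_smul (c : F4) (v : V) : ext (c • v) = c • ext v := by
  funext i; fin_cases i <;> simp [ext] <;> ring

theorem nf_add (f g : Fin 8 → F4) : nf (f + g) = nf f + nf g := by
  funext i; fin_cases i <;> simp [nf] <;> ring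

theorem nf_smul (c : F4) (f : Fin 8 → F4) : nf (c • f) = c • nf f := by
  funext i; fin_cases i <;> simp [nf] <;> ring

theorem nf_ext : ∀ v, nf (ext v) = v :=
  lin_ext (fun v w => by rw [ext_add, nf_add]) (fun _ _ => rfl) (by decide +kernel)

theorem sum_ext : ∀ v, ∑ i, ext v i = 0 :=
  lin_ext (g := fun _ => 0) (fun v w => by simp [ext_add, Finset.sum_add_distrib]) (by simp) (by decide +kernel)

theorem nf_const : ∀ c : F4, nf (fun _ => c) = 0 := by decide

theorem ext_nf {f : Fin 8 → F4} (h : ∑ i, f i = 0) : ext (nf f) = f + fun _ => f 3 + f 4 + f 5 := by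
  rw [Fin.sum_univ_eight, CharTwo.add_eq_zero] at h
  funext i
  fin_cases i <;> simp [ext, nf, ← h] <;> generalize f 0 = a, f 1 = b, f 2 = c, f 3 = d, f 4 = e, f 5 = g, f 6 = k <;>
    revert a b c d e g k <;> decide +kernel

theorem pa_one (v : V) : pa 1 v = v := nf_ext v

theorem pa_mul (σ τ : Perm (Fin 8)) (v : V) : pa (σ * τ) v = pa σ (pa τ v) := by
  rw [pa, pa, pa, ext_nf (f := ext v ∘ τ.symm) ((Equiv.sum_comp τ.symm (ext v)).trans (sum_ext v))]
  exact ((nf_add (ext v ∘ (σ * τ).symm) _).trans (by rw [nf_const, add_zero])).symm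

theorem pa_add (σ : Perm (Fin 8)) (v w : V) : pa σ (v + w) = pa σ v + pa σ w := by
  rw [pa, ext_add]; exact nf_add _ _

theorem pa_smul (σ : Perm (Fin 8)) (c : F4) (v : V) : pa σ (c • v) = c • pa σ v := by
  rw [pa, ext_smul]; exact nf_smul _ _

theorem pa_zero (σ : Perm (Fin 8)) : pa σ 0 = 0 := by simpa using pa_smul σ 0 0

theorem pa_inv_pa (σ : Perm (Fin 8)) (v : V) : pa σ⁻¹ (pa σ v) = v := by rw [← pa_mul, inv_mul_cancel, pa_one]

theorem pa_pa_inv (σ : Perm (Fin 8)) (v : V) : pa σ (pa σ⁻¹ v) = v := by rw [← pa_mul, mul_inv_cancel, pa_one]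

theorem pa_inj (σ : Perm (Fin 8)) : Function.Injective (pa σ) := Function.LeftInverse.injective (pa_inv_pa σ)

theorem Qf_add (v w : V) : Qf (v + w) = Qf v + Qf w + Bf v w := by simp only [Qf, Bf, Pi.add_apply]; ring

theorem Qf_smul (c : F4) (v : V) : Qf (c • v) = c * c * Qf v := by simp only [Qf, Pi.smul_apply, smul_eq_mul]; ring

theorem Bf_comm (v w : V) : Bf v w = Bf w v := by simp only [Bf]; ring

theorem Bf_add (u v w : V) : Bf (u + v) w = Bf u w + Bf v w := by simp only [Bf, Pi.add_apply]; ring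

theorem Bf_add' (u v w : V) : Bf u (v + w) = Bf u v + Bf u w := by simp only [Bf, Pi.add_apply]; ring

theorem Bf_smul (c : F4) (v w : V) : Bf (c • v) w = c * Bf v w := by simp only [Bf, Pi.smul_apply, smul_eq_mul]; ring

theorem Bf_smul' (c : F4) (v w : V) : Bf v (c • w) = c * Bf v w := by simp only [Bf, Pi.smul_apply, smul_eq_mul]; ring

theorem Bf_self (v : V) : Bf v v = 0 := by
  have := Qf_add v v
  rwa [add_self, F4.add_self, zero_add, eq_comm, show Qf 0 = 0 by simp [Qf]] at this

theorem fr_add (v w : V) : fr (v + w) = fr v + fr w := by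
  funext i; fin_cases i <;> simp [fr, ← sq, CharTwo.add_sq]

theorem fr_smul (c : F4) (v : V) : fr (c • v) = (c * c) • fr v := by
  funext i; fin_cases i <;> simp [fr] <;> ring

theorem fr_fr : ∀ v, fr (fr v) = v := lin_ext (fun v w => by rw [fr_add, fr_add]) (fun _ _ => rfl) (by decide +kernel)

/-- additive maps that preserve the forms, up to the field automorphism `t`, on the coordinate axes -/
theorem iso_ext {f : V → V} {t : F4 → F4} (hf : ∀ v w, f (v + w) = f v + f w) (ht : ∀ a b, t (a + b) = t a + t b)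
    (hQ : ∀ i c, Qf (f (e i c)) = t (Qf (e i c))) (hB : ∀ i c j d, Bf (f (e i c)) (f (e j d)) = t (Bf (e i c) (e j d))) :
    (∀ v, Qf (f v) = t (Qf v)) ∧ ∀ v w, Bf (f v) (f w) = t (Bf v w) := by
  have k : ∀ v w, Bf (f v) (f w) = t (Bf v w) := fun v w => lin_ext (f := fun v => Bf (f v) (f w))
    (g := fun v => t (Bf v w)) (fun _ _ => by rw [hf, Bf_add]) (fun _ _ => by rw [Bf_add, ht]) (fun i c => lin_ext
      (f := fun w => Bf (f (e i c)) (f w)) (g := fun w => t (Bf (e i c) w)) (fun _ _ => by rw [hf, Bf_add'])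
      (fun _ _ => by rw [Bf_add', ht]) (hB i c) w) v
  exact ⟨V_ind (by simpa using hQ 0 0) fun v i c h => by rw [hf, Qf_add, Qf_add, h, hQ, k, ht, ht], k⟩

theorem pa_both (σ : Perm (Fin 8)) : ∀ v, Qf (pa σ v) = Qf v ∧ fr (pa σ v) = pa σ (fr v) := by
  have h : σ ∈ Submonoid.closure (Set.range fun i : Fin 7 => swap i.castSucc i.succ) :=
    (Equiv.Perm.mclosure_swap_castSucc_succ 7).ge (Submonoid.mem_top σ)
  induction h using Submonoid.closure_induction with
  | mem x hx =>
    obtain ⟨i, rfl⟩ := hx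
    have k : ∀ i : Fin 7, ∀ j k : Fin 6, Qf (pa (swap i.castSucc i.succ) (e j 1)) = Qf (e j 1) ∧
      Bf (pa (swap i.castSucc i.succ) (e j 1)) (pa (swap i.castSucc i.succ) (e k 1)) = Bf (e j 1) (e k 1) := by
      decide +kernel
    have s : ∀ j c, e j c = c • e j 1 := fun j c => by rw [← Pi.single_smul, smul_eq_mul, mul_one]
    exact fun v => ⟨(iso_ext (t := id) (pa_add _) (fun _ _ => rfl)
      (fun j c => by rw [s, pa_smul, Qf_smul, Qf_smul, (k i j j).1, id])
      fun j c l d => by rw [s j, s l, pa_smul, pa_smul, Bf_smul, Bf_smul, Bf_smul', Bf_smul', (k i j l).2, id]).1 v,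
      lin_ext (f := fun v => fr (pa _ v)) (g := fun v => pa _ (fr v)) (fun v w => by rw [pa_add, fr_add])
        (fun v w => by rw [fr_add, pa_add]) (by revert i; decide +kernel) v⟩
  | one => simp [pa_one]
  | mul x y _ _ hx hy => exact fun v => by rw [pa_mul, pa_mul, (hx _).1, (hx _).2, (hy _).1, (hy _).2]; simp

theorem Qf_pa (σ : Perm (Fin 8)) (v : V) : Qf (pa σ v) = Qf v := (pa_both σ v).1

theorem fr_pa (σ : Perm (Fin 8)) (v : V) : fr (pa σ v) = pa σ (fr v) := (pa_both σ v).2

theorem Bf_pa (σ : Perm (Fin 8)) (v w : V) : Bf (pa σ v) (pa σ w) = Bf v w := by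
  have := Qf_pa σ (v + w)
  rwa [pa_add, Qf_add, Qf_add, Qf_pa, Qf_pa, add_right_inj] at this

/-- the form is nondegenerate -/
theorem exists_Bf {v : V} (h : v ≠ 0) (c : F4) : ∃ w, Bf w v = c := by
  obtain ⟨i, hi⟩ : ∃ i : Fin 6, Bf (e i 1) v ≠ 0 := by
    by_contra k
    push Not at k
    refine h (funext fun i => ?_)
    fin_cases i
    exacts [by simpa [Bf] using k 3, by simpa [Bf] using k 2, by simpa [Bf] using k 1, by simpa [Bf] using k 0,
      by simpa [Bf] using k 5, by simpa [Bf] using k 4]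
  exact ⟨(c * (Bf (e i 1) v)⁻¹) • e i 1, by rw [Bf_smul, inv_mul_cancel_right₀ hi]⟩

theorem fr_both : (∀ v, Qf (fr v) = Qf v * Qf v) ∧ ∀ v w, Bf (fr v) (fr w) = Bf v w * Bf v w :=
  iso_ext (t := fun a => a * a) fr_add (by decide) (by decide +kernel) (by decide +kernel)

theorem Qf_fr (v : V) : Qf (fr v) = Qf v * Qf v := fr_both.1 v

theorem Bf_fr (v w : V) : Bf (fr v) (fr w) = Bf v w * Bf v w := fr_both.2 v w

theorem card_V : Nat.card V = 4096 := by simp [F4.card]

end CL.SG2
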